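import Cfsg.Agent.W7.I
import Cfsg.Agent.S2475
import Cfsg.Agent.Classical.SmallIso

/-! Piece E: the simple group of order `504` with element orders dividing `2`, `7`, `9`. -/

set_option autoImplicit false
set_option linter.unusedSectionVars false

namespace CF.W7.Ep

open Subgroup CF.BG
open scoped MatrixGroups

variable {X : Type*} [Group X] [Finite X] {S H : Subgroup X} {t y : X}

theorem core_dvd (H : Subgroup X) : H.normalCore.index ∣ H.index.factorial := by
  rw [normalCore_eq_ker, index_ker, index, ← Nat.card_perm]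
  exact card_subgroup_dvd_card _

/-- the model -/
structure Md (X : Type*) [Group X] : Prop where
  sim : IsSimpleGroup X
  card : Nat.card X = 504
  sp : ∀ g : X, g ^ 2 = 1 ∨ g ^ 7 = 1 ∨ g ^ 9 = 1

theorem md_psl {F : Type} [Field F] [Fintype F] (h : Fintype.card F = 8) : Md PSL(2, F) := by
  have hc : Nat.card F = 8 := Nat.card_eq_fintype_card.trans h
  have : CharP F 2 := by
    obtain ⟨p, _, n, hp, e⟩ := FiniteField.card' F
    rwa [← (Nat.prime_dvd_prime_iff_eq hp Nat.prime_two).1 (hp.dvd_of_dvd_pow (n := 3) (by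
      rw [show 2 ^ 3 = 8 from rfl, ← h, e]; exact dvd_pow_self p n.ne_zero))]
  refine ⟨Classical.isSimpleGroup_PSL2 (by omega), Classical.card_PSL2_of_card hc (by decide), fun g => ?_⟩
  have := (Cfsg.Agent.S2475.result (F := F) 2 (by omega)).le ⟨g, rfl⟩
  simp only [h, Set.mem_setOf_eq, orderOf_dvd_iff_pow_eq_one] at this
  exact this

namespace Md
variable (M : Md X)
include M

theorem nomix (t2 : t ^ 2 = 1) (t1 : t ≠ 1) (o : PiElt {2}ᶜ y) (c : Commute t y) : y = 1 := by
  have k : ∀ n, t ^ (2 * n + 1) * y ^ (2 * n + 1) = 1 → False := fun n e => by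
    rw [pow_succ, pow_mul, t2, one_pow, one_mul] at e
    exact t1 ((piElt_of_pow_eq_one Nat.prime_two t2).eq_one (eq_inv_of_mul_eq_one_left e ▸ (o.pow _).inv))
  rcases M.sp (t * y) with e | e | e <;> rw [c.mul_pow] at e
  · rw [t2, one_mul] at e; exact (piElt_of_pow_eq_one Nat.prime_two e).eq_one o
  · exact (k 3 e).elim
  · exact (k 4 e).elim

variable (s : Syl 2 S ⊤)
include s

theorem sq (h : t ∈ S) : t ^ 2 = 1 := by
  rcases M.sp t with e | e | e
  · exact e
  · rw [(s.pi.elt h).eq_one ((piElt_of_pow_eq_one (by decide) e).of_single' (by simp)), one_pow]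
  · have : PiElt {3} t := PiNat.dvd (((piNat_prime Nat.prime_three).2 (Set.mem_singleton 3)).pow 2)
      (orderOf_dvd_of_pow_eq_one e)
    rw [(s.pi.elt h).eq_one (this.of_single' (by simp)), one_pow]

theorem abel : Abel S := abel_of_forall fun x hx y hy => by
  have i := fun {x} (hx : x ∈ S) => inv_eq_of_mul_eq_one_right ((pow_two x).symm.trans (M.sq s hx))
  rw [← i (mul_mem hx hy), mul_inv_rev, i hx, i hy]

theorem c8 : ♯S = 8 ∧ S.index = 63 := by
  obtain ⟨k, e⟩ := s.pi.card_pow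
  have h1 := S.card_mul_index
  have h2 := s.not_dvd Nat.prime_two
  rw [relIndex_top_right] at h2
  rw [M.card, e] at h1
  have : k ≤ 8 := (Nat.pow_le_pow_iff_right one_lt_two).1 ((Nat.le_of_dvd (by decide) ⟨_, h1.symm⟩).trans' le_rfl |>.trans
    (by decide : 504 ≤ 2 ^ 9) |>.trans' le_rfl) |>.eq_or_lt.elim (fun e => by subst e; omega) Nat.le_of_lt_succ
  rw [e]
  interval_cases k <;> omega

theorem fpf (o : PiElt {2}ᶜ y) (y1 : y ≠ 1) : S ⊓ 𝐂₁ y = ⊥ := eq_bot_of_forall fun _ ht =>
  by_contra fun t1 => y1 (M.nomix (M.sq s ht.1) t1 o (mem_cent1.1 ht.2))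

theorem nb (l : S ≤ H) (n : H ⊓ 𝐍 S ≤ S) : H ≤ S := by
  have d := ((s.of_le l le_top).burnside (n.trans (M.abel s))).sdprod (s.of_le l le_top)
  refine d.sup.ge.trans (sup_le (le_trans ((M.abel s).le_of_cent1 (fun c => ?_) d.norm (s.pi.coprime (O_pi _ _))
    fun t ht t1 y hy => ?_) bot_le) le_rfl)
  · obtain ⟨g, rfl⟩ := c.exists_gen
    have := Nat.le_of_dvd two_pos (orderOf_dvd_of_pow_eq_one (M.sq s (mem_zpowers g)))
    rw [← Nat.card_zpowers, (M.c8 s).1] at this
    omega
  · exact M.nomix (M.sq s ht) t1 ((O_pi _ _).elt hy.1) (mem_cent1.1 hy.2).symm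

theorem core (h : H.index = 3) : False := by
  have := M.sim
  have k := core_dvd H
  rcases (H.normalCore_normal).eq_bot_or_eq_top with e | e
  · rw [e, index_bot, M.card, h] at k; revert k; decide
  · rw [top_le_iff.1 (e.ge.trans H.normalCore_le), index_top] at h; omega

theorem r7 : S.relIndex (𝐍 S) = 7 := by
  have := M.sim
  have l := le_norm_self S
  have h1 := relIndex_mul_index l
  have h2 := card_mul_relIndex l
  rw [(M.c8 s).2] at h1
  rw [(M.c8 s).1] at h2
  have h3 : ¬ 3 ∣ S.relIndex (𝐍 S) := fun d => by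
    obtain ⟨y, hy, o⟩ := exists_mem_orderOf_eq Nat.prime_three (h2 ▸ d.mul_left 8)
    have y3 := piElt_of_pow_eq_one Nat.prime_three (o ▸ pow_orderOf_eq_one y)
    have := BG2.card_modEq_card_cent Nat.prime_three y3.zpowers (zpowers_le.2 hy)
    rw [cent_zpowers, M.fpf s (y3.of_single' (by simp)) (fun e => by simp [e] at o), (M.c8 s).1, card_bot] at this
    revert this; decide
  have h4 : S.relIndex (𝐍 S) ≠ 1 := fun e => by
    have := top_le_iff.1 (M.nb s le_top (inf_le_right.trans (relIndex_eq_one.1 e)))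
    have k := (M.c8 s).2
    rw [this, index_top] at k; omega
  have : S.relIndex (𝐍 S) ∣ 7 := (Nat.Coprime.pow_right 2 ((Nat.Prime.coprime_iff_not_dvd Nat.prime_three).2 h3).symm).dvd_of_dvd_mul_left
    (Dvd.intro _ h1)
  exact ((Nat.dvd_prime (by decide)).1 this).resolve_left h4

theorem ex7 : ∃ x ∈ 𝐍 S, orderOf x = 7 :=
  exists_mem_orderOf_eq (by decide) (by rw [← card_mul_relIndex (le_norm_self S), M.r7 s]; exact dvd_mul_left _ _)

theorem umax (l : S ≤ H) : H ≤ 𝐍 S ∨ H = ⊤ := by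
  by_cases n : H ⊓ 𝐍 S ≤ S
  · exact .inl ((M.nb s l n).trans (le_norm_self S))
  have h1 := relIndex_mul_relIndex S (H ⊓ 𝐍 S) (𝐍 S) (le_inf l (le_norm_self S)) inf_le_right
  rw [M.r7 s] at h1
  have l1 : 𝐍 S ≤ H := (relIndex_eq_one.1 (((Nat.dvd_prime (by decide)).1 (Dvd.intro_left _ h1)).resolve_right fun e =>
    n (relIndex_eq_one.1 (by rw [e] at h1; omega)))).trans inf_le_left
  have h2 := relIndex_mul_index (le_norm_self S)
  have h3 := relIndex_mul_index l1
  rw [M.r7 s, (M.c8 s).2] at h2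
  rw [show (𝐍 S).index = 3 ^ 2 by omega] at h3
  obtain ⟨k, hk, e⟩ := (Nat.dvd_prime_pow Nat.prime_three).1 (Dvd.intro_left _ h3)
  interval_cases k
  · exact .inr (index_eq_one.1 e)
  · exact (M.core s e).elim
  · exact .inl (relIndex_eq_one.1 (by rw [e] at h3; omega))

theorem fuse {u : X} (ht : t ∈ S) (hu : u ∈ S) (t1 : t ≠ 1) (u1 : u ≠ 1) : ∃ g, g * t * g⁻¹ = u := by
  obtain ⟨x, hx, o⟩ := M.ex7 s
  have k := (piElt_of_pow_eq_one (by decide) (o ▸ pow_orderOf_eq_one x)).of_single' (π := {2}) (by simp)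
  let f : Option (zpowers x) → S := fun g => g.elim 1 fun g => ⟨g * t * (g : X)⁻¹, conj_mem_of_norm (zpowers_le.2 hx g.2) ht⟩
  have i : Function.Injective f := by
    rintro (_ | a) (_ | b) e <;> have e := congrArg Subtype.val e
    · rfl
    · exact absurd (by simpa [f] using e.symm) t1
    · exact absurd (by simpa [f] using e) t1
    · refine congrArg some (Subtype.ext (inv_mul_eq_one.1 (M.nomix (M.sq s ht) t1
        (k.zpowers.elt (mul_mem (inv_mem b.2) a.2)) ?_)).symm)
      change (a : X) * t * (a : X)⁻¹ = b * t * (b : X)⁻¹ at e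
      calc t * ((b : X)⁻¹ * a) = (b : X)⁻¹ * (b * t * (b : X)⁻¹) * a := by group
        _ = _ := by rw [← e]; group
  obtain ⟨_ | g, e⟩ := (i.bijective_of_nat_card_le (by
    rw [(M.c8 s).1, Finite.card_option, Nat.card_zpowers, o])).2 ⟨u, hu⟩
  · exact absurd (congrArg Subtype.val e).symm u1
  · exact ⟨g, congrArg Subtype.val e⟩

end Md

end CF.W7.Ep
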