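import Cfsg.Agent.W7.E1

/-! Piece E: `2`-local subgroups of type `L₂(8)`. -/

set_option autoImplicit false
set_option linter.unusedSectionVars false

namespace CF.W7.Ep

open Subgroup Cfsg CF.Loc
open scoped commutatorElement

variable {G : Type*} [Group G] [Finite G] {A H K L M N Q S T U : Subgroup G} {x y g s s' t : G}

/-- the facts used about a subgroup of type `L₂(8)` -/
structure Z8 (N T : Subgroup G) : Prop where
  syl : IsSyl 2 T N
  r8 : 𝐎[2](N).relIndex T = 8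
  ex : ∃ x ∈ N, x ∈ 𝐍(T) ∧ orderOf x = 7
  um : ∀ H, T ≤ H → H ≤ N → H ≤ 𝐍(T) ∨ H = N
  fu : ∀ t ∈ T, ∀ u ∈ T, t ∉ 𝐎[2](N) → u ∉ 𝐎[2](N) → ∃ g ∈ N, (g * t * g⁻¹)⁻¹ * u ∈ 𝐎[2](N)
  inv : ∀ x ∈ N, orderOf x = 7 → ∃ s ∈ N, s ∈ 𝐍(zpowers x) ∧ orderOf s = 2

theorem full (h : Hy 7 G) (n : Tn G) (u : IsPGroup 2 U) (u0 : U ≠ ⊥) (st : St 𝐍(U) L 504) : L = 𝐍(U) := by
  have : Fact (Nat.Prime 3) := ⟨Nat.prime_three⟩
  have : Fact (Nat.Prime 7) := ⟨h.pr⟩
  have c := card_mul_relIndex st.lo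
  rw [st.idx] at c
  obtain ⟨x, m, ox⟩ := exists_orderOf_eq_of_dvd_card (p := 7) (H := L) (c ▸ Dvd.dvd.mul_left (by decide) _)
  obtain ⟨e1, e2⟩ := h.idx2 ox m st.le st.nr st.lo (le_normalizer_pCoreOf 2 _ (st.le m))
    (h.nd (.inl rfl) (isPGroup_pCoreOf 2 _)) (r := 72) st.idx
  refine st.le.antisymm (relIndex_eq_one.1 (((Nat.dvd_prime Nat.prime_three).1
    (Nat.dvd_of_mul_dvd_mul_right two_pos e2)).resolve_right fun e => ?_))
  have e3 := e
  rw [← (h.syl ox m).frattini_sup st.le st.nr, relIndex_sup_of_le_normalizer (inf_le_left.trans st.nr)] at e3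
  obtain ⟨y, hy, oy⟩ := exists_orderOf_eq_of_dvd_card (p := 3) (e3 ▸ relIndex_dvd_card L _)
  obtain ⟨A, a, l⟩ := exists_isSyl_ge (isPGroup_zpowers_of_orderOf (p := 3) (k := 1) oy) (zpowers_le.2 hy.1)
  obtain ⟨b, rfl⟩ := BG.Cyc.exists_gen (n U A u u0 a.isPGroup a.le)
  obtain ⟨k, rfl⟩ := mem_zpowers_iff.1 (l (mem_zpowers y))
  have b3 : b ^ 3 ∈ L := by
    have := normal_subgroupOf_of_le_normalizer' st.nr
    have := pow_index_mem (H := L.subgroupOf 𝐍(U)) ⟨b, a.le (mem_zpowers b)⟩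
    rwa [← relIndex, e] at this
  have d9 : 9 ∣ orderOf b := by
    rw [← Nat.card_zpowers, a.card_eq]
    refine pow_dvd_pow 3 (show 2 ≤ _ from (Nat.prime_three.pow_dvd_iff_le_factorization Nat.card_pos.ne').1
      (Dvd.dvd.trans ?_ (card_dvd_of_le st.le)))
    exact c ▸ Dvd.dvd.mul_left (by decide) _
  have : (orderOf b : ℤ) ∣ k * 3 := orderOf_dvd_iff_zpow_eq_one.2 (by
    rw [zpow_mul]; exact_mod_cast (oy ▸ pow_orderOf_eq_one _ : (b ^ k) ^ 3 = 1))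
  obtain ⟨j, rfl⟩ : 3 ∣ k := by have := (Int.natCast_dvd_natCast.2 d9).trans this; omega
  have m' : b ^ (3 * j) ∈ L ⊓ 𝐍(zpowers x) := mem_inf.2 ⟨by rw [zpow_mul]; exact zpow_mem (by exact_mod_cast b3) j, hy.2⟩
  have := orderOf_dvd_natCard _ m'
  rw [oy, ← card_mul_relIndex (le_inf (zpowers_le.2 m) le_normalizer), e1, h.cz ox] at this
  revert this; decide

theorem z8 (h : Hy 7 G) (st : St N N 504) (i : Is2 𝐎[2](N) N 8) (t : IsSyl 2 T N) : Z8 N T := by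
  have : Fact (Nat.Prime 7) := ⟨h.pr⟩
  obtain ⟨F, _, _, hF, f, sj, k⟩ := i
  have M := md_psl hF
  have s0 := (isSyl_top t.toSylow).map f
  rw [t.coe_toSylow, map_top_of_surjective f sj] at s0
  have s := BG.syl_mk Nat.prime_two le_top (BG.piGrp_of_isPGroup Nat.prime_two s0.isPGroup) s0.not_dvd_relIndex
  have mi : ∀ {H : Subgroup G}, 𝐎[2](N) ≤ H → ∀ g : N, f g ∈ (H.subgroupOf N).map f → (g : G) ∈ H := fun l g m => by
    rwa [← mem_comap, comap_map_eq_self (k ▸ subgroupOf_mono N l)] at m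
  have nn : ∀ g : N, f g ∈ 𝐍((T.subgroupOf N).map f) → (g : G) ∈ 𝐍(T) := fun g m =>
    mem_normalizer_of_conj_mem fun y hy => mi t.pCoreOf_le (g * ⟨y, t.le hy⟩ * g⁻¹) (by
      rw [map_mul, map_mul, map_inv]; exact conj_mem_of_mem_normalizer m (mem_map_of_mem f hy))
  have k1 : ∀ g : N, f g = 1 ↔ (g : G) ∈ 𝐎[2](N) := fun g => by rw [← MonoidHom.mem_ker, k, mem_subgroupOf]
  refine ⟨t, by rw [← relIndex_subgroupOf t.le, ← k, relIndex_ker, (M.c8 s).1], ?_, fun H l l' => ?_,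
    fun a ha b hb a1 b1 => ?_, fun x m ox => ?_⟩
  · obtain ⟨x, m, o⟩ := M.ex7 s
    obtain ⟨y, rfl⟩ := sj x
    obtain ⟨z, hz, oz⟩ := exists_orderOf_eq_of_dvd_card (p := 7) (H := zpowers (y : G)) (by
      rw [Nat.card_zpowers, orderOf_coe, ← o]; exact orderOf_map_dvd f y)
    exact ⟨z, zpowers_le.2 y.2 hz, zpowers_le.2 (nn y m) hz, oz⟩
  · refine (M.umax s (map_mono (subgroupOf_mono N l))).imp (fun e g hg => nn ⟨g, l' hg⟩ (e (mem_map_of_mem f hg)))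
      fun e => l'.antisymm fun g hg => mi (t.pCoreOf_le.trans l) ⟨g, hg⟩ ?_
    rw [e]; trivial
  · obtain ⟨g, e⟩ := M.fuse s (mem_map_of_mem f (show (⟨a, t.le ha⟩ : N) ∈ _ from ha))
      (mem_map_of_mem f (show (⟨b, t.le hb⟩ : N) ∈ _ from hb)) (mt (k1 _).1 a1) (mt (k1 _).1 b1)
    obtain ⟨g, rfl⟩ := sj g
    exact ⟨g, g.2, (k1 ((g * ⟨a, t.le ha⟩ * g⁻¹)⁻¹ * ⟨b, t.le hb⟩)).1 (by
      rw [map_mul, map_inv, map_mul, map_mul, map_inv, e, inv_mul_cancel])⟩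
  · obtain ⟨e1, -⟩ := h.idx2 ox m le_rfl st.nr st.lo (le_normalizer_pCoreOf 2 _ m)
      (h.nd (.inl rfl) (isPGroup_pCoreOf 2 _)) (r := 72) st.idx
    obtain ⟨y, hy, oy⟩ := exists_orderOf_eq_of_dvd_card (p := 2) (e1 ▸ relIndex_dvd_card _ _ : 72 % 7 ∣ _)
    exact ⟨y, hy.1, hy.2, oy⟩

theorem st_fact {r : ℕ} (st : St N L r) (l : 𝐎[2](N) ≤ H) (l' : H ≤ L) : H = L ∨ r ∣ (H.relIndex L).factorial := by
  have nq := normal_subgroupOf_of_le_normalizer' (st.le.trans (le_normalizer_pCoreOf 2 N))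
  have k : 𝐎[2](N).subgroupOf L ≤ (H.subgroupOf L).normalCore := normal_le_normalCore.2 (subgroupOf_mono L l)
  rcases st.sim ((H.subgroupOf L).normalCore.map L.subtype) (by
    rw [← map_subgroupOf_eq_of_le st.lo]; exact map_mono k) (map_subtype_le _) (le_normalizer_map_subtype _) with e | e
  · refine .inr ?_
    have := core_dvd (H.subgroupOf L)
    rwa [← comap_map_eq_self_of_injective L.subtype_injective (H.subgroupOf L).normalCore, e, ← subgroupOf, ← relIndex,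
      st.idx] at this
  · exact .inl (l'.antisymm (e.ge.trans ((map_mono (normalCore_le _)).trans (by rw [map_subgroupOf_eq_of_le l']))))

section
variable (h : Hy 7 G)
include h

theorem nd2 (k : IsPGroup 2 K) : ¬ 7 ∣ Nat.card K := h.nd (.inl rfl) k

theorem solv (u : IsPGroup 2 U) (u0 : U ≠ ⊥) (so : Group.IsSolvable 𝐍(U)) (ox : orderOf x = 7) (m : x ∈ 𝐍(U)) :
    𝐍(U) ≤ 𝐍(𝐎[2](𝐍(U)) ⊔ zpowers x) := by
  refine (h.dich ox (h.lc U u u0) m).resolve_right fun ⟨L, a, b, c, d, e, k⟩ => ?_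
  have n := b.trans (le_normalizer_pCoreOf 2 _)
  rcases k (𝐎[2](𝐍(U)) ⊔ ⁅L, L⁆) le_sup_left (sup_le a (BG.der_le L))
    (le_normalizer_sup n (le_normalizer_commutator le_normalizer le_normalizer)) with q | q
  · exact e (le_sup_right.trans q.le)
  · refine e ((BG.der_le L).trans ((BG.qt_eq_bot n).1 (((BG.Sol.mono so b).qt _).eq_bot_of_le_der ?_)))
    rw [← BG.qt_comm n n, BG.qt_le_qt_iff n ((BG.der_le L).trans n), q]

variable (ox : orderOf x = 7)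
include ox

theorem ncomm (o : orderOf s = 2) (c : x * s = s * x) : False := by
  have := h.fix ox (nd2 h (isPGroup_zpowers_of_orderOf (k := 1) o)) (mem_zpowers s) c
  rw [this, orderOf_one] at o; omega

theorem inv1 (n : s ∈ 𝐍(zpowers x)) (o : orderOf s = 2) : s * x * s⁻¹ = x⁻¹ := by
  have : Fact (Nat.Prime 7) := ⟨h.pr⟩
  have m := conj_mem_of_mem_normalizer n (mem_zpowers x)
  have s2 : s * s = 1 := by rw [← pow_two, ← o, pow_orderOf_eq_one]
  refine eq_inv_of_mul_eq_one_left (by_contra fun e => ncomm h (s := s) ((orderOf_eq_prime ?_ e)) o ?_)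
  · exact orderOf_dvd_iff_pow_eq_one.1 (ox ▸ orderOf_dvd_of_mem_zpowers (mul_mem m (mem_zpowers x)))
  · have := (BG.abel_zpowers x).mul_comm m (mem_zpowers x)
    calc _ = x * (s * x * s⁻¹) * s := by rw [this]
      _ = (s * s) * x * s⁻¹ * x := by
        rw [s2, one_mul, mul_assoc x, inv_mul_cancel_right, inv_eq_of_mul_eq_one_right s2, mul_assoc]
      _ = _ := by group

theorem inv2 (n : s ∈ 𝐍(zpowers x)) (o : orderOf s = 2) (n' : s' ∈ 𝐍(zpowers x)) (o' : orderOf s' = 2) :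
    s⁻¹ * s' ∈ zpowers x := by
  rw [← h.cx x ox, mem_centralizer_singleton_iff]
  calc _ = s⁻¹ * (s' * x * s'⁻¹) * s' := by group
    _ = _ := by rw [inv1 h ox n' o', ← inv1 h ox n o]; group

theorem Z8.notN (z : Z8 N T) (nx : x ∈ 𝐍(T)) (m : s ∈ N) (n : s ∈ 𝐍(zpowers x)) (o : orderOf s = 2) : s ∉ 𝐍(T) := fun k => by
  have l := z.syl.le_of_le_normalizer' (isPGroup_zpowers_of_orderOf (k := 1) o) (zpowers_le.2 m) (zpowers_le.2 k)
    (mem_zpowers s)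
  have := (h.inf ox (nd2 h z.syl.isPGroup)).le (mem_inf.2 ⟨mul_mem (conj_mem_of_mem_normalizer nx l) (inv_mem l), by
    rw [h.cP ox, mul_assoc, mul_assoc]
    exact mul_mem (mem_zpowers x) (mul_assoc s _ _ ▸ conj_mem_of_mem_normalizer n (inv_mem (mem_zpowers x)))⟩)
  exact ncomm h ox o (by simpa [mul_inv_eq_iff_eq_mul] using this)

theorem Z8.gen (z : Z8 N T) (nx : x ∈ 𝐍(T)) (m : s ∈ N) (n : s ∈ 𝐍(zpowers x)) (o : orderOf s = 2) :
    T ⊔ zpowers s = N :=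
  (z.um _ le_sup_left (sup_le z.syl.le (zpowers_le.2 m))).resolve_left fun l =>
    z.notN h ox nx m n o (l (mem_sup_right (mem_zpowers s)))

end

end CF.W7.Ep
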