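import Cfsg.Agent.W7.E2
import Cfsg.Agent.S2765

/-! Piece E: a maximal nonsolvable `2`-local subgroup is not of type `L₂(8)`. -/

set_option autoImplicit false
set_option linter.unusedSectionVars false

namespace CF.W7
namespace Ep

open Subgroup Cfsg CF.Loc
open scoped commutatorElement

variable {G : Type*} [Group G] [Finite G] {A B H K L M N Q S T U Y : Subgroup G} {x y g s s' t : G}

theorem case1 [IsSimpleGroup G] (h : Hy 7 G) (ty : Ty 7 G) (n : Tn G) (gl : Gl G) (m : Mx M T) (z : Z8 M T)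
    (sy : IsSyl 2 T ⊤) : False := by
  obtain ⟨U, u, u0, l, nl⟩ := gl T M sy z.syl.le m.ne_top
  obtain ⟨x, xM, xT, ox⟩ := z.ex
  obtain ⟨s, sM, sP, os⟩ := z.inv x xM ox
  have e := z.gen h ox xT sM sP os
  have k : ∀ s' ∈ 𝐍(zpowers x), orderOf s' = 2 → s' ∈ M := fun s' a b => by
    simpa using mul_mem sM (zpowers_le.2 xM (inv2 h ox sP os a b))
  have tN := sy.mono (le_normalizer.trans l) le_top
  have xN := l xT
  have lo := tN.pCoreOf_le
  by_cases so : Group.IsSolvable 𝐍(U)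
  · have a := solv h u u0 so ox xN
    have b : T ≤ 𝐎[2](𝐍(U)) := by
      have : T ≤ 𝐎[2](𝐍(U)) ⊔ zpowers x := (h.comm ox (nd2 h sy.isPGroup) xT).ge.trans
        ((commutator_mono le_rfl le_sup_right).trans (commutator_le_right_of_le_normalizer (tN.le.trans a)))
      rw [← inf_of_le_right this, sup_inf_of_le_normalizer_left (zpowers_le.2 (le_normalizer_pCoreOf 2 _ xN)) lo,
        inf_comm, ← h.cP ox, h.inf ox (nd2 h sy.isPGroup), sup_bot_eq]
    refine nl ((h.frat ox xN a).ge.trans (sup_le (lo.trans z.syl.le) fun g hg => m.nq.le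
      (normalizer_le_normalizer_pCoreOf 2 M (mem_normalizer_of_cj_le ?_))))
    conv_lhs => rw [← e, cj_sup, cj_zpowers]
    exact sup_le (cj_le_of_mem_normalizer (lo.antisymm b ▸ le_normalizer_pCoreOf 2 _ hg.1) le_rfl |>.trans z.syl.le)
      (zpowers_le.2 (k _ (mul_mem (mul_mem hg.2 sP) (inv_mem hg.2)) (by rw [orderOf_conj, os])))
  obtain ⟨-, ⟨L, st⟩ | ⟨L, st, i⟩ | ⟨d, y⟩⟩ | ⟨c, -⟩ | ⟨c, -⟩ := ty U u u0 so
  · have c := card_mul_relIndex st.lo
    rw [st.idx] at c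
    have xL := h.mem ox xN st.le st.nr (c ▸ Dvd.dvd.mul_left (by decide) _)
    have sL := tN.inf_of_le_normalizer st.le st.nr
    have lq : 𝐎[2](𝐍(U)) ≤ T ⊓ L := le_inf lo st.lo
    have nx : zpowers x ≤ 𝐍(T ⊓ L) := zpowers_le.2 (le_normalizer_inf (zpowers_le.2 xT) (zpowers_le.2 (st.nr xN))
      (mem_zpowers x))
    have lH : T ⊓ L ⊔ zpowers x ≤ L := sup_le inf_le_right (zpowers_le.2 xL)
    have r1 := relIndex_mul_relIndex _ _ _ lq sL.le
    have r2 := relIndex_mul_relIndex _ _ _ le_sup_left lH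
    have r3 := sL.not_dvd_relIndex
    obtain ⟨j, r4⟩ := relIndex_eq_pow_of_isPGroup sL.isPGroup 𝐎[2](𝐍(U))
    rw [relIndex_sup_of_le_normalizer nx, ← inf_relIndex_right, ← h.cP ox, h.inf ox (nd2 h sL.isPGroup), h.cP ox,
      relIndex_bot_left, h.cz ox] at r2
    rw [st.idx, r4, ← r2] at r1
    rw [← r2] at r3
    have r5 : (T ⊓ L ⊔ zpowers x).relIndex L = 3 := by
      have : j < 8 := (Nat.pow_lt_pow_iff_right one_lt_two).1 ((Nat.le_of_dvd (by decide) ⟨_, r1.symm⟩).trans_lt (by decide))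
      interval_cases j <;> omega
    rcases st_fact st (lq.trans le_sup_left) lH with q | q
    · rw [q, relIndex_self] at r5; omega
    · rw [r5] at q; revert q; decide
  · obtain rfl := full h n u u0 st
    have z' := z8 h st i tN
    obtain ⟨s', a, b, c⟩ := z'.inv x xN ox
    exact nl ((z'.gen h ox xT a b c).ge.trans (sup_le z.syl.le (zpowers_le.2 (k s' b c))))
  · have : Fact (Nat.Prime 3) := ⟨Nat.prime_three⟩
    obtain ⟨A, a⟩ := exists_isSyl 3 𝐍(U)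
    obtain ⟨b, rfl⟩ := BG.Cyc.exists_gen (n U A u u0 a.isPGroup a.le)
    have d9 : 27 ∣ orderOf b := by
      rw [← Nat.card_zpowers, a.card_eq]
      exact pow_dvd_pow 3 (show 3 ≤ _ from (Nat.prime_three.pow_dvd_iff_le_factorization Nat.card_pos.ne').1 d)
    obtain ⟨j, e⟩ := d9
    have := orderOf_dvd_of_pow_eq_one ((pow_mul b _ _).trans (y (b ^ (3 * j)) (pow_mem (a.le (mem_zpowers b)) _) (by
      rw [← pow_mul, show 3 * j * 9 = 27 * j by ring, ← e, pow_orderOf_eq_one])))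
    have p := orderOf_pos b
    have := Nat.le_of_dvd (by omega) this
    omega
  · omega
  · omega

theorem push (h : Hy 7 G) (m : Mx M T) (z : Z8 M T) (i : Is2 𝐎[2](M) M 8) (nl : ¬ 𝐍(T) ≤ M) :
    ⁅⁅T, T⁆, T⁆ = ⊥ ∧ IsElementaryAbelian 2 𝐎[2](M) := by
  obtain ⟨F, _, _, hF, f, sj, -⟩ := i
  obtain ⟨x, xM, xT, ox⟩ := z.ex
  obtain ⟨s, sM, sP, os⟩ := z.inv x xM ox
  have nt : 𝐍(T).subgroupOf M ≠ ⊤ := fun e => z.notN h ox xT sM sP os (subgroupOf_eq_top.1 e sM)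
  have um : ∀ H : Subgroup M, T.subgroupOf M ≤ H → H ≤ 𝐍(T).subgroupOf M ∨ H = ⊤ := fun H l =>
    (z.um _ ((map_subgroupOf_eq_of_le z.syl.le).ge.trans (map_mono l)) (map_subtype_le H)).imp map_le_iff_le_comap.1
      fun e => map_subtype_inj.1 (e.trans (BG.map_top_subtype M).symm)
  have it : ∀ V : Subgroup M, V.Normal → V ≤ pCore 2 M → ∀ k, V ≤ iterCommutator V ⊤ k := fun V a b k => by
    induction k with
    | zero => exact le_rfl
    | succ k ih =>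
      refine le_trans ?_ (commutator_mono ih le_rfl)
      rw [← map_subtype_le_map_subtype, map_commutator, BG.map_top_subtype]
      exact (h.comm ox (nd2 h (((isPGroup_pCore 2 M).to_le b).map _)) (le_normalizer_map_subtype V xM)).ge.trans
        (commutator_mono le_rfl (zpowers_le.2 xM))
  rcases Cfsg.Agent.S2765.result m.syl.toSylow (isCharP_iff.1 (m.ch h)) ⟨𝐍(T).subgroupOf M,
    ⟨⟨nt, fun H l => (um H ((subgroupOf_mono M le_normalizer).trans l.le)).resolve_left l.not_ge⟩,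
      subgroupOf_mono M le_normalizer⟩, fun H ⟨a, b⟩ => (a.le_iff.1 ((um H b).resolve_right a.1)).resolve_left nt |>.symm⟩
    f.ker F 3 (by decide) hF ⟨QuotientGroup.quotientKerEquivOfSurjective f sj⟩ (fun C c0 cc cn => nl fun g hg => by
      let e := subgroupOfEquivOfLe z.syl.le
      refine (m.eq ((C.map (T.subgroupOf M).subtype).map M.subtype)
        (((m.syl.toSylow.isPGroup'.to_subgroup C).map _).map _) (fun e => c0 ((map_eq_bot_iff_of_injective _ (subtype_injective _)).1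
          ((map_eq_bot_iff_of_injective _ (subtype_injective _)).1 e)))
        (le_normalizer_map_subtype (hQ := cn) _)).le (mem_normalizer_of_conj_mem ?_)
      rintro _ ⟨_, ⟨c, hc, rfl⟩, rfl⟩
      exact ⟨_, ⟨_, (characteristic_iff_le_comap.1 cc (e.trans ((cact T ⟨g, hg⟩).trans e.symm))) hc, rfl⟩, rfl⟩)
    with ⟨c2, -, -, -, U, W, -, lU, ch, -, ⟨j, e1⟩, k, e2⟩ | ⟨c, -⟩
  · refine ⟨?_, isElemAb_of_le (isElemAb_omegaOneCenter 2 𝐎[2](M)) ?_⟩
    · have := congrArg (Subgroup.map M.subtype) c2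
      rwa [Subgroup.lowerCentralSeries_succ, Subgroup.lowerCentralSeries_succ, Subgroup.lowerCentralSeries_zero,
        map_commutator, map_commutator,
        m.syl.map_toSylow, Subgroup.map_bot] at this
    · have w : W = ⊥ := le_bot_iff.1 ((it W ch.2.2.1 (ch.1.le.trans lU) j).trans e1.le)
      have l := (omegaOneCenter_le 2 𝐎[2](M)).trans (pCoreOf_le 2 M)
      have u := (it _ inferInstance le_rfl k).trans e2
      rcases ch.2.2.2 ((omegaOneCenter 2 𝐎[2](M)).subgroupOf M) (normal_subgroupOf_of_le_normalizer'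
        ((le_normalizer_pCoreOf 2 M).trans (normalizer_le_normalizer_omegaOneCenter 2 _))) (w ▸ bot_le)
        ((subgroupOf_mono M (omegaOneCenter_le 2 _)).trans ((pCoreOf_subgroupOf 2 M).le.trans u)) with q | q
      · refine absurd ?_ (omegaOneCenter_ne_bot (isPGroup_pCoreOf 2 M) m.o)
        rw [← map_subgroupOf_eq_of_le l, q, w, Subgroup.map_bot]
      · rw [← map_subgroupOf_eq_of_le l, q, ← pCoreOf_def]; exact map_mono u
  · omega

theorem idx_le (l : Q ≤ T) (c : ⁅⁅T, T⁆, T⁆ = ⊥) (ht : t ∈ T) :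
    (centralizer {t}).relIndex Q ≤ Nat.card ↥(T ⊓ 𝐂(T)) := by
  have k : ∀ q : Q, ⁅(q : G), t⁆ ∈ T ⊓ 𝐂(T) := fun q => have := commutator_mem_commutator (l q.2) ht
    mem_inf.2 ⟨BG.der_le T this, commutator_eq_bot_iff_le_centralizer.1 c this⟩
  let θ : Q →* G := MonoidHom.mk' (fun q => ⁅(q : G), t⁆) fun a b => by
    rw [coe_mul, commutatorElement_mul_left_eq_conj_mul, (k b).2 a (l a.2), mul_inv_cancel_right,
      (k a).2 _ (k b).1]
  have e : (centralizer {t}).subgroupOf Q = θ.ker := Subgroup.ext fun q => by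
    rw [mem_subgroupOf, mem_centralizer_singleton_iff, ← commutatorElement_eq_one_iff_mul_comm]; rfl
  rw [relIndex, e, index_ker]
  exact card_le_of_le (by rintro _ ⟨q, rfl⟩; exact k q)

section
variable (h : Hy 7 G) (m : Mx M T) (z : Z8 M T) (c : ⁅⁅T, T⁆, T⁆ = ⊥) (a : IsElementaryAbelian 2 𝐎[2](M))
include h m z c a

theorem zq : T ⊓ 𝐂(T) ≤ 𝐎[2](M) := inf_le_right.trans ((centralizer_anti z.syl.pCoreOf_le).trans (m.cq h))

theorem cz (ht : t ∈ T) (t0 : t ∉ 𝐎[2](M)) : 𝐎[2](M) ⊓ centralizer {t} = T ⊓ 𝐂(T) ∧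
    Nat.card 𝐎[2](M) = Nat.card ↥(T ⊓ 𝐂(T)) * Nat.card ↥(T ⊓ 𝐂(T)) := by
  obtain ⟨x, xM, xT, ox⟩ := z.ex
  obtain ⟨s, sM, sP, os⟩ := z.inv x xM ox
  have nq := le_normalizer_pCoreOf 2 M
  have ab := isElemAb_le_centralizer a
  obtain ⟨b, hb, l⟩ := z.syl.exists_cj_le (isPGroup_zpowers_of_orderOf (k := 1) os) (zpowers_le.2 sM)
  obtain ⟨g, hg, e⟩ := z.fu t ht _ (l (conj_mem_cj b (mem_zpowers s))) t0 fun q => z.notN h ox xT sM sP os
    (le_normalizer (z.syl.pCoreOf_le (by simpa [mul_assoc] using conj_mem_of_mem_normalizer' (nq hb) q)))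
  have r : ∀ g ∈ M, ∀ t, (centralizer {g * t * g⁻¹}).relIndex 𝐎[2](M) = (centralizer {t}).relIndex 𝐎[2](M) :=
    fun g hg t => by rw [← cj_centralizer_singleton, ← relIndex_cj g (centralizer {t}), cj_eq_self (nq hg)]
  have e1 : (centralizer {t}).relIndex 𝐎[2](M) = (centralizer {s}).relIndex 𝐎[2](M) := by
    rw [← r g hg, ← r b hb s, ← inf_relIndex_right, ← inf_relIndex_right (centralizer {b * s * b⁻¹})]
    congr 1
    ext q
    refine and_congr_left fun hq => ?_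
    have : g * t * g⁻¹ * ((g * t * g⁻¹)⁻¹ * (b * s * b⁻¹)) ∈ centralizer {q} ↔ g * t * g⁻¹ ∈ centralizer {q} :=
      mul_mem_cancel_right (mem_centralizer_singleton_iff.2 (ab hq _ e))
    rw [mul_inv_cancel_left] at this
    show q ∈ centralizer _ ↔ q ∈ centralizer _
    simpa only [mem_centralizer_singleton_iff, eq_comm] using this.symm
  have e2 := relIndex_inf_le (H := centralizer {s}) (K := centralizer {x * s * x⁻¹}) (L := 𝐎[2](M))
  rw [r x xM, ← e1, ← inf_relIndex_right, show centralizer {s} ⊓ centralizer {x * s * x⁻¹} ⊓ 𝐎[2](M) = ⊥ from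
    eq_bot_iff.2 fun q hq => h.fix (x := x ^ 2) (by rw [orderOf_pow, ox]; rfl) (nd2 h (isPGroup_pCoreOf 2 M)) hq.2 (by
      have k1 := Commute.inv_right (mem_centralizer_singleton_iff.1 hq.1.1)
      have k2 := Commute.mul_right (mem_centralizer_singleton_iff.1 hq.1.2) k1
      rw [mul_assoc, mul_assoc, ← mul_assoc s, ← conj_inv, inv1 h ox sP os, inv_inv, ← pow_two] at k2
      exact k2.symm.eq), relIndex_bot_left] at e2
  have e3 := idx_le z.syl.pCoreOf_le c ht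
  have e4 := card_mul_relIndex (inf_le_left : 𝐎[2](M) ⊓ centralizer {t} ≤ _)
  have l : T ⊓ 𝐂(T) ≤ 𝐎[2](M) ⊓ centralizer {t} := le_inf (zq h m z c a)
    fun q hq => mem_centralizer_singleton_iff.2 (hq.2 t ht).symm
  have e5 := card_le_of_le l
  rw [inf_comm 𝐎[2](M), inf_relIndex_right, inf_comm] at e4
  have e6 := Nat.le_of_mul_le_mul_right (e4.le.trans e2) (Nat.pos_of_ne_zero (FiniteIndex.index_ne_zero))
  exact ⟨(eq_of_le_of_card_le l (by omega)).symm, by rw [← e4]; congr 1 <;> omega⟩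

theorem conj1 (n : y ∈ 𝐍(T)) (ne : cj[y] 𝐎[2](M) ≠ 𝐎[2](M)) : cj[y] 𝐎[2](M) ⊓ 𝐎[2](M) = T ⊓ 𝐂(T) ∧
    𝐎[2](M) ⊔ cj[y] 𝐎[2](M) = T := by
  have l := cj_le_of_mem_normalizer n z.syl.pCoreOf_le
  obtain ⟨t, ht, t0⟩ := SetLike.not_le_iff_exists.1 fun q => ne (eq_of_le_of_card_le q (card_cj _ _).ge)
  obtain ⟨e1, e2⟩ := cz h m z c a (l ht) t0
  have l1 : cj[y] 𝐎[2](M) ⊓ 𝐎[2](M) ≤ T ⊓ 𝐂(T) := e1 ▸ le_inf inf_le_right fun q hq =>
    mem_centralizer_singleton_iff.2 (isElemAb_le_centralizer (isElemAb_cj y a) hq.1 t ht).symm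
  have e3 := card_le_of_le l1
  have e4 := card_mul_relIndex (inf_le_left : cj[y] 𝐎[2](M) ⊓ 𝐎[2](M) ≤ _)
  have e5 := relIndex_le_of_le_right (H := 𝐎[2](M)) l (by rw [z.r8]; decide)
  obtain ⟨x, -, xT, ox⟩ := z.ex
  obtain ⟨j, e6⟩ := h.mod ox (nd2 h (z.syl.isPGroup.to_inf_left (K := 𝐂(T)))) (le_normalizer_inf (zpowers_le.2 xT)
    (le_normalizer_centralizer (zpowers_le.2 xT)) (mem_zpowers x))
  have e7 : j ≠ 0 := fun q => center_ne_bot z.syl.isPGroup (fun e => m.o (le_bot_iff.1 (e ▸ z.syl.pCoreOf_le)))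
    (card_eq_one.1 (by simpa [q] using e6))
  rw [inf_comm (cj[y] 𝐎[2](M)), inf_relIndex_right, inf_comm, card_cj, e2] at e4
  rw [z.r8] at e5
  rw [e6] at e3 e4
  have e8 : j = 1 := by
    have := Nat.le_of_mul_le_mul_left (e4.ge.trans (Nat.mul_le_mul e3 e5)) (by omega)
    omega
  subst e8
  have e9 : 𝐎[2](M).relIndex (cj[y] 𝐎[2](M)) = 8 := by
    have := Nat.le_of_mul_le_mul_left (e4.ge.trans (Nat.mul_le_mul_right _ e3)) (by omega)
    omega
  refine ⟨eq_of_le_of_card_le l1 (by rw [e9] at e4; omega), eq_of_le_of_card_le (sup_le z.syl.pCoreOf_le l) ?_⟩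
  rw [← card_mul_relIndex z.syl.pCoreOf_le, ← card_mul_relIndex (le_sup_left : _ ≤ 𝐎[2](M) ⊔ cj[y] 𝐎[2](M)),
    relIndex_sup_of_le_normalizer (l.trans (z.syl.le.trans (le_normalizer_pCoreOf 2 M))), e9, z.r8]

theorem conj2 (n : y ∈ 𝐍(T)) (ne : cj[y] 𝐎[2](M) ≠ 𝐎[2](M)) (n' : g ∈ 𝐍(T)) (ne' : cj[g] 𝐎[2](M) ≠ 𝐎[2](M)) :
    cj[g] 𝐎[2](M) = cj[y] 𝐎[2](M) := by
  obtain ⟨e1, e2⟩ := conj1 h m z c a n ne
  have l := cj_le_of_mem_normalizer n z.syl.pCoreOf_le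
  refine eq_of_le_of_card_le (fun u hu => ?_) (by rw [card_cj, card_cj])
  by_cases k : u ∈ 𝐎[2](M)
  · exact (e1.ge ((conj1 h m z c a n' ne').1.le ⟨hu, k⟩)).1
  obtain ⟨q, hq, t, ht, rfl⟩ := (mem_sup_of_le_normalizer (l.trans (z.syl.le.trans (le_normalizer_pCoreOf 2 M)))).1
    (e2.ge (cj_le_of_mem_normalizer n' z.syl.pCoreOf_le hu))
  have i : ∀ {u : G}, u ^ 2 = 1 → u⁻¹ = u := fun e => inv_eq_of_mul_eq_one_right ((pow_two _).symm.trans e)
  refine mul_mem (e1.ge ((cz h m z c a (l ht) fun e => k (mul_mem hq e)).1.le ⟨hq, mem_centralizer_singleton_iff.2 ?_⟩)).1 ht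
  rw [← i ((isElemAb_cj g a).2 _ hu), mul_inv_rev, i (a.2 _ hq), i ((isElemAb_cj y a).2 _ ht)]

end

theorem case2 (h : Hy 7 G) (m : Mx M T) (z : Z8 M T) (i : Is2 𝐎[2](M) M 8) (sy : ¬ IsSyl 2 T ⊤) : False := by
  obtain ⟨x, xM, xT, ox⟩ := z.ex
  obtain ⟨s, sM, sP, os⟩ := z.inv x xM ox
  have pT := z.syl.isPGroup
  have t0 : T ≠ ⊥ := fun e => m.o (le_bot_iff.1 (e ▸ z.syl.pCoreOf_le))
  obtain ⟨X, s1, l⟩ := exists_isSyl_ge pT (le_normalizer (H := T))
  have lt : T < X := l.lt_of_ne fun e => sy (isSyl_of_normalizer (by rw [top_inf_eq]; exact e ▸ s1))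
  have fr := h.frat ox xT (solv h pT t0 (m.sol T X pT t0 s1.isPGroup s1.le (card_lt_card_of_lt lt)) ox xT)
  have lY : T ≤ 𝐎[2](𝐍(T)) := le_pCoreOf pT le_normalizer le_rfl
  have pY := isPGroup_pCoreOf 2 𝐍(T)
  have nl : ¬ 𝐎[2](𝐍(T)) ≤ T := fun e => by
    have d : 2 ∣ T.relIndex 𝐍(T) := by_contra fun d =>
      lt.ne ((isSyl_of_not_dvd_relIndex pT le_normalizer d).eq_of_le s1.isPGroup l s1.le).symm
    rw [← fr, e.antisymm lY, relIndex_sup_of_le_normalizer inf_le_left] at d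
    obtain ⟨s', a, b⟩ := exists_orderOf_eq_of_dvd_card (p := 2) (d.trans (relIndex_dvd_card _ _))
    exact z.notN h ox xT sM sP os (by simpa using mul_mem a.1 (zpowers_le.2 xT (inv2 h ox a.2 b sP os)))
  have k : ∀ y ∈ 𝐎[2](𝐍(T)), y ∈ M → y ∈ T := fun y a b =>
    (z.syl.eq_of_le pY.to_inf_left (le_inf lY z.syl.le) inf_le_right).le (mem_inf.2 ⟨a, b⟩)
  obtain ⟨c, a⟩ := push h m z i fun e => nl fun y hy => k y hy (e (pCoreOf_le 2 _ hy))
  obtain ⟨y, hy, y0⟩ := SetLike.not_le_iff_exists.1 nl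
  have ne : ∀ y ∈ 𝐎[2](𝐍(T)), y ∉ T → cj[y] 𝐎[2](M) ≠ 𝐎[2](M) := fun y a b e => b (k y a (m.nq.le (cj_eq_self_iff.1 e)))
  have d : T.relIndex 𝐎[2](𝐍(T)) ∣ 2 := relIindex_dvd_two_iff'.2 ⟨y⁻¹, inv_mem hy, fun b hb => or_iff_not_imp_right.2 fun b0 =>
    k _ (mul_mem (inv_mem hy) hb) (m.nq.le (cj_eq_self_iff.1 (by
      rw [cj_mul, conj2 h m z c a (pCoreOf_le 2 _ hy) (ne y hy y0) (pCoreOf_le 2 _ hb) (ne b hb b0), cj_inv_cj])))⟩
  obtain ⟨c1, e1⟩ := h.mod ox (nd2 h pT) xT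
  obtain ⟨c2, e2⟩ := h.mod ox (nd2 h pY) (le_normalizer_pCoreOf 2 _ xT)
  rw [← card_mul_relIndex lY, ((Nat.dvd_prime Nat.prime_two).1 d).resolve_left (mt relIndex_eq_one.1 nl)] at e2
  omega

end Ep

open Ep in
theorem t8 {G : Type*} [Group G] [Finite G] [IsSimpleGroup G] {M T : Subgroup G} (h : Hy 7 G) (t : Ty 7 G) (n : Tn G)
    (g : Gl G) (m : Mx M T) (y : Y8 M) : False := by
  obtain ⟨L, st, i⟩ := y
  obtain rfl : L = M := m.nq ▸ full h n (Loc.isPGroup_pCoreOf 2 M) m.o (m.nq.symm ▸ st)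
  have z := z8 h st i m.syl
  exact (em _).elim (case1 h t n g m z) (case2 h m z i)

end CF.W7
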